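import Mathlib
import Cfsg.Agent.H297.Frame
set_option linter.all false

/-!
# Standard subgroups whose centralizer has cyclic Sylow 2-subgroups, second part

* `der` : elements of `[R, R]` of order dividing 4 are trivial, `R` a subgroup with cyclic Sylow 2-subgroups;
* `uniq` : a central involution of `R` is its only involution;
* `act` : the automorphism of `A` induced by an element of `N(A)`;
* `exists_mul` : if all automorphisms of `A` are inner then `N(A) = A C(A)`.
-/

set_option autoImplicit false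

namespace Cfsg.Agent.H297.Frame

open Subgroup Cfsg

variable {G : Type*} [Group G]

theorem map_commutator_subtype (R : Subgroup G) : (commutator ↥R).map R.subtype = ⁅R, R⁆ := by
  rw [_root_.commutator_def, Subgroup.map_commutator, ← MonoidHom.range_eq_map, Subgroup.range_subtype]

theorem der [Finite G] {R : Subgroup G} (hR : ∀ P : Sylow 2 ↥R, IsCyclic ↥(P : Subgroup ↥R)) {r : G}
    (hr : r ∈ ⁅R, R⁆) (h4 : (r * r) * (r * r) = 1) : r = 1 := by
  rw [← map_commutator_subtype] at hr
  obtain ⟨x, hx, rfl⟩ := hr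
  have h1 := odd_commutator hR
  have h2 : orderOf x ∣ Nat.card (commutator ↥R) := by
    have h3 := orderOf_dvd_natCard (⟨x, hx⟩ : commutator ↥R)
    rwa [← Subgroup.orderOf_coe] at h3
  have h3 : orderOf x ∣ 4 := by
    apply orderOf_dvd_of_pow_eq_one
    apply Subtype.ext
    show ((x : G)) ^ 4 = 1
    rw [← h4]
    show (x : G) ^ 4 = (x : G) * x * (x * x)
    rw [pow_succ, pow_succ, pow_succ, pow_one]
    simp only [mul_assoc]
  have h4 : orderOf x ∣ Nat.gcd (Nat.card (commutator ↥R)) 4 := Nat.dvd_gcd h2 h3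
  have h5 : Nat.Coprime (Nat.card (commutator ↥R)) 4 := by
    have : Nat.Coprime (Nat.card (commutator ↥R)) 2 := Nat.coprime_two_right.2 h1
    exact Nat.Coprime.pow_right 2 this
  rw [h5] at h4
  have h6 : x = 1 := orderOf_eq_one_iff.1 (Nat.dvd_one.1 h4)
  rw [h6]
  rfl

theorem uniq [Finite G] {R : Subgroup G} (hR : ∀ P : Sylow 2 ↥R, IsCyclic ↥(P : Subgroup ↥R)) {z r : G}
    (hzR : z ∈ R) (hz : ∀ g ∈ R, g * z = z * g) (hzz : z * z = 1) (hz1 : z ≠ 1) (hr : r ∈ R) (hrr : r * r = 1) :
    r = 1 ∨ r = z := by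
  by_cases h1 : r = 1
  · exact Or.inl h1
  · right
    have h2 := eq_of_central hR (z := ⟨z, hzR⟩) (r := ⟨r, hr⟩) (fun g => Subtype.ext (hz g g.2))
      (Subtype.ext hzz) (fun h => hz1 (congrArg Subtype.val h)) (Subtype.ext hrr)
      (fun h => h1 (congrArg Subtype.val h))
    exact congrArg Subtype.val h2

/-- The automorphism of `A` induced by an element of the normalizer. -/
def act {A : Subgroup G} {c : G} (hc : c ∈ normalizer (A : Set G)) : MulAut ↥A where
  toFun k := ⟨c * k * c⁻¹, (mem_normalizer_iff.1 hc _).1 k.2⟩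
  invFun k := ⟨c⁻¹ * k * c, by
    rw [mem_normalizer_iff.1 hc]
    have : c * (c⁻¹ * (k : G) * c) * c⁻¹ = k := by group
    rw [this]
    exact k.2⟩
  left_inv k := Subtype.ext (by
    change c⁻¹ * (c * (k : G) * c⁻¹) * c = k
    group)
  right_inv k := Subtype.ext (by
    change c * (c⁻¹ * (k : G) * c) * c⁻¹ = k
    group)
  map_mul' a b := Subtype.ext (by
    change c * ((a : G) * b) * c⁻¹ = (c * a * c⁻¹) * (c * b * c⁻¹)
    group)

theorem act_apply {A : Subgroup G} {c : G} (hc : c ∈ normalizer (A : Set G)) (k : ↥A) :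
    ((act hc k : ↥A) : G) = c * k * c⁻¹ := rfl

/-- If the automorphism induced by `c` is inner, then `c ∈ A C(A)`. -/
theorem exists_mul {A : Subgroup G} {c : G} (hc : c ∈ normalizer (A : Set G)) {s : ↥A}
    (h : ∀ k : ↥A, act hc k = s * k * s⁻¹) : (s : G)⁻¹ * c ∈ centralizer (A : Set G) := by
  rw [mem_centralizer_iff]
  intro k hk
  have h1 := congrArg Subtype.val (h ⟨k, hk⟩)
  have h2 : c * k * c⁻¹ = s * k * (s : G)⁻¹ := h1
  have h3 : k * ((s : G)⁻¹ * c) = (s : G)⁻¹ * (s * k * (s : G)⁻¹) * c := by group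
  rw [h3, ← h2]
  group

end Cfsg.Agent.H297.Frame
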